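import Mathlib

/-!
Normal form of an involution in characteristic two: a permutation matrix swapping disjoint pairs of coordinates.
-/

set_option autoImplicit false

namespace CfsgLib.CharTwoInvolution

open Matrix

variable {F : Type*} [Field F] [CharP F 2] {n : ℕ}

/-- The indexing of `r` pairs and the fixed points. -/
noncomputable def pairIndex (n r : ℕ) (h : 2 * r ≤ n) : (Fin r ⊕ Fin r) ⊕ Fin (n - 2 * r) ≃ Fin n :=
  Fintype.equivFinOfCardEq (by simp; omega)

/-- The permutation swapping the `r` pairs. -/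
noncomputable def pairSwap (n r : ℕ) (h : 2 * r ≤ n) : Equiv.Perm (Fin n) :=
  (pairIndex n r h).symm.trans ((Equiv.sumCongr (Equiv.sumComm _ _) (Equiv.refl _)).trans (pairIndex n r h))

theorem pairSwap_apply (n r : ℕ) (h : 2 * r ≤ n) (x : (Fin r ⊕ Fin r) ⊕ Fin (n - 2 * r)) :
    pairSwap n r h (pairIndex n r h x) = pairIndex n r h (Sum.map Sum.swap id x) := by
  rcases x with (i | i) | i <;> simp [pairSwap]

theorem det_permMatrix (σ : Equiv.Perm (Fin n)) : (σ.permMatrix F).det = 1 := by
  rw [Matrix.det_permutation]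
  rcases Int.units_eq_one_or (Equiv.Perm.sign σ) with h | h <;> simp [h, CharTwo.neg_eq]

/-- Squares are all elements of a finite field of characteristic two. -/
theorem exists_sq_eq [Finite F] (t : F) : ∃ s : F, s ^ 2 = t := by
  obtain ⟨s, hs⟩ := Finite.injective_iff_surjective.1 (frobenius_inj F 2) t
  exact ⟨s, by rw [← hs, frobenius_def]⟩

/-- An involution has a basis permuted by `pairSwap`, the number of pairs being the rank of `N - 1`. -/
theorem exists_conj_pairSwap (N : Matrix (Fin n) (Fin n) F) (hN : N * N = 1) :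
    ∃ h : 2 * (N - 1).rank ≤ n, ∃ G : Matrix (Fin n) (Fin n) F, IsUnit G ∧
      N * G = G * (pairSwap n (N - 1).rank h).permMatrix F := by
  classical
  set T := (N - 1).mulVecLin with hT
  have hT2 : ∀ v, T (T v) = 0 := by
    intro v
    have h2 : (N - 1) * (N - 1) = 0 := by
      rw [sub_mul, mul_sub, mul_sub, hN, one_mul, mul_one, mul_one]
      ext i j
      simp only [Matrix.sub_apply, Matrix.zero_apply]
      have : ∀ x y : F, x - y - (y - x) = 0 := fun x y => by
        rw [CharTwo.sub_eq_add, CharTwo.sub_eq_add, CharTwo.sub_eq_add, add_comm y x, CharTwo.add_self_eq_zero]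
      exact this _ _
    show (N - 1) *ᵥ ((N - 1) *ᵥ v) = 0
    rw [Matrix.mulVec_mulVec, h2, Matrix.zero_mulVec]
  have hle : LinearMap.range T ≤ LinearMap.ker T := by
    rintro _ ⟨v, rfl⟩; exact hT2 v
  set r := (N - 1).rank with hr
  have hrk : Module.finrank F (LinearMap.range T) = r := rfl
  have hadd := LinearMap.finrank_range_add_finrank_ker T
  rw [hrk, Module.finrank_fin_fun] at hadd
  have h2r : 2 * r ≤ n := by
    have := Submodule.finrank_mono hle
    rw [hrk] at this
    omega
  refine ⟨h2r, ?_⟩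
  let bi := Module.finBasisOfFinrankEq F (LinearMap.range T) hrk
  have hv : ∀ i, ∃ v, T v = (bi i : Fin n → F) := fun i => (bi i).2
  choose v hv using hv
  obtain ⟨D, hD⟩ := Submodule.exists_isCompl (LinearMap.range T)
  set C := LinearMap.ker T ⊓ D with hC
  have hsup : LinearMap.range T ⊔ C = LinearMap.ker T := by
    rw [hC, inf_comm, ← sup_inf_assoc_of_le _ hle, hD.sup_eq_top, top_inf_eq]
  have hinf : LinearMap.range T ⊓ C = ⊥ := by
    rw [hC, ← inf_assoc, eq_bot_iff]
    exact le_trans (inf_le_inf inf_le_left le_rfl) hD.inf_eq_bot.le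
  have hCrk : Module.finrank F C = n - 2 * r := by
    have h := Submodule.finrank_sup_add_finrank_inf_eq (LinearMap.range T) C
    rw [hsup, hinf, finrank_bot, hrk] at h
    omega
  let bc := Module.finBasisOfFinrankEq F C hCrk
  let fam : (Fin r ⊕ Fin r) ⊕ Fin (n - 2 * r) → Fin n → F :=
    Sum.elim (Sum.elim v (fun i => N *ᵥ v i)) (fun i => (bc i : Fin n → F))
  have hNv : ∀ i, N *ᵥ v i = (bi i : Fin n → F) + v i := fun i => by
    rw [← hv i]
    show N *ᵥ v i = (N - 1) *ᵥ v i + v i
    rw [Matrix.sub_mulVec, Matrix.one_mulVec, sub_add_cancel]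
  have hTc : ∀ i, T (bc i : Fin n → F) = 0 := fun i => (bc i).2.1
  have hli : LinearIndependent F fam := by
    rw [Fintype.linearIndependent_iff]
    intro g hg
    simp only [Fintype.sum_sum_type, fam, Sum.elim_inl, Sum.elim_inr, hNv, smul_add, Finset.sum_add_distrib] at hg
    have hTbi : ∀ i, T (bi i : Fin n → F) = 0 := fun i => hle (bi i).2
    have h1 := congrArg T hg
    simp only [map_add, map_sum, map_smul, hTbi, hTc, smul_zero, Finset.sum_const_zero, add_zero, zero_add, hv, map_zero,
      ← Finset.sum_add_distrib, ← add_smul] at h1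
    have hsum : ∀ i, g (.inl (.inl i)) + g (.inl (.inr i)) = 0 := by
      refine Fintype.linearIndependent_iff.1 bi.linearIndependent _ (Subtype.ext ?_)
      simpa using h1
    have h2 : (∑ i, g (.inl (.inr i)) • (bi i : Fin n → F)) + ∑ i, g (.inr i) • (bc i : Fin n → F) = 0 := by
      have h3 : ∑ i, (g (.inl (.inl i)) + g (.inl (.inr i))) • v i = 0 := by simp [hsum]
      simp only [add_smul, Finset.sum_add_distrib] at h3
      rw [← hg]
      conv_lhs => rw [← zero_add ((∑ i, g (.inl (.inr i)) • (bi i : Fin n → F)) + _), ← h3]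
      abel
    have hmem : (∑ i, g (.inr i) • (bc i : Fin n → F)) ∈ LinearMap.range T ⊓ C := by
      refine ⟨?_, Submodule.sum_mem _ fun i _ => C.smul_mem _ (bc i).2⟩
      rw [eq_neg_of_add_eq_zero_right h2]
      exact Submodule.neg_mem _ (Submodule.sum_mem _ fun i _ => Submodule.smul_mem _ _ (bi i).2)
    rw [hinf, Submodule.mem_bot] at hmem
    have hc : ∀ i, g (.inr i) = 0 := by
      refine Fintype.linearIndependent_iff.1 bc.linearIndependent _ (Subtype.ext ?_)
      simpa using hmem
    have hb : ∀ i, g (.inl (.inr i)) = 0 := by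
      refine Fintype.linearIndependent_iff.1 bi.linearIndependent _ (Subtype.ext ?_)
      rw [hmem, add_zero] at h2
      simpa using h2
    rintro ((i | i) | i)
    · simpa [hb i] using hsum i
    · exact hb i
    · exact hc i
  let e := pairIndex n r h2r
  let G : Matrix (Fin n) (Fin n) F := Matrix.of fun i j => fam (e.symm j) i
  refine ⟨G, ?_, ?_⟩
  · rw [← Matrix.linearIndependent_cols_iff_isUnit]
    exact hli.comp _ e.symm.injective
  · have hinv : ∀ j, (pairSwap n r h2r).symm j = pairSwap n r h2r j := by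
      intro j
      rw [Equiv.symm_apply_eq]
      obtain ⟨x, rfl⟩ := e.surjective j
      rw [pairSwap_apply, pairSwap_apply]
      rcases x with (i | i) | i <;> rfl
    have hswap : ∀ j, N *ᵥ fam (e.symm j) = fam (e.symm (pairSwap n r h2r j)) := by
      intro j
      obtain ⟨x, rfl⟩ := e.surjective j
      rw [Equiv.symm_apply_apply, pairSwap_apply, Equiv.symm_apply_apply]
      rcases x with (i | i) | i
      · rfl
      · show N *ᵥ (N *ᵥ v i) = v i
        rw [Matrix.mulVec_mulVec, hN, Matrix.one_mulVec]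
      · show N *ᵥ (bc i : Fin n → F) = (bc i : Fin n → F)
        have h : (N - 1) *ᵥ (bc i : Fin n → F) = 0 := hTc i
        rwa [Matrix.sub_mulVec, Matrix.one_mulVec, sub_eq_zero] at h
    ext i j
    rw [show (G * (pairSwap n r h2r).permMatrix F) = G.submatrix id (pairSwap n r h2r).symm from
      PEquiv.mul_toMatrix_toPEquiv ..]
    show (N * G) i j = fam (e.symm ((pairSwap n r h2r).symm j)) i
    rw [hinv, ← hswap]
    rfl

/-- A diagonal matrix of determinant `s ^ 2` commuting with `pairSwap`. -/
theorem exists_diagonal_commute {r : ℕ} (h : 2 * r ≤ n) (hr : 0 < r) (s : F) :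
    ∃ d : Fin n → F, (∀ i, d i = 1 ∨ d i = s) ∧ (Matrix.diagonal d).det = s ^ 2 ∧
      Commute (Matrix.diagonal d) ((pairSwap n r h).permMatrix F) := by
  classical
  let d₀ : (Fin r ⊕ Fin r) ⊕ Fin (n - 2 * r) → F :=
    Sum.elim (Sum.elim (fun i => if i = ⟨0, hr⟩ then s else 1) (fun i => if i = ⟨0, hr⟩ then s else 1)) (fun _ => 1)
  refine ⟨fun j => d₀ ((pairIndex n r h).symm j), fun j => ?_, ?_, ?_⟩
  · show d₀ ((pairIndex n r h).symm j) = 1 ∨ d₀ ((pairIndex n r h).symm j) = s
    rcases (pairIndex n r h).symm j with (i | i) | i <;> simp [d₀] <;> tauto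
  · rw [Matrix.det_diagonal, ← (pairIndex n r h).prod_comp]
    simp [d₀, Fintype.prod_sum_type, sq]
  · show Matrix.diagonal _ * _ = _ * _
    ext i j
    rw [Matrix.diagonal_mul, Matrix.mul_diagonal]
    by_cases hij : pairSwap n r h i = j
    · rw [← hij, mul_comm]
      congr 1
      obtain ⟨x, rfl⟩ := (pairIndex n r h).surjective i
      rw [pairSwap_apply, Equiv.symm_apply_apply, Equiv.symm_apply_apply]
      rcases x with (i | i) | i <;> rfl
    · simp [Equiv.Perm.permMatrix, PEquiv.toMatrix_apply, hij]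

theorem rank_sub_one_eq {N M G : Matrix (Fin n) (Fin n) F} (hG : IsUnit G) (h : N * G = G * M) :
    (N - 1).rank = (M - 1).rank := by
  have hd := (Matrix.isUnit_iff_isUnit_det _).1 hG
  rw [← Matrix.rank_mul_eq_left_of_isUnit_det G (N - 1) hd, sub_mul, one_mul, h,
    show G * M - G = G * (M - 1) by rw [mul_sub, mul_one], Matrix.rank_mul_eq_right_of_isUnit_det G _ hd]

end CfsgLib.CharTwoInvolution
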