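import Mathlib
import Cfsg.Agent.Eq.Def_GeometricClasses

/-!
Components with respect to an m-decomposition.
-/

set_option autoImplicit false

namespace CfsgLib.DecompProj

open Matrix

variable {ι : Type} [Fintype ι] [DecidableEq ι] {F : Type*} [Field F] {t m : ℕ}
variable {D : Fin t → Submodule F (ι → F)}

theorem isInternal (hD : Cfsg.Geo.IsMDecomposition m D) : DirectSum.IsInternal D :=
  DirectSum.isInternal_submodule_of_iSupIndep_of_iSup_eq_top hD.indep hD.iSup_eq_top

/-- The projection onto `D i` along the other members. -/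
noncomputable def proj (hD : Cfsg.Geo.IsMDecomposition m D) (i : Fin t) :
    (ι → F) →ₗ[F] (ι → F) :=
  (D i).subtype ∘ₗ DirectSum.component F (Fin t) (fun j => D j) i ∘ₗ
    (LinearEquiv.ofBijective (DirectSum.coeLinearMap D) (isInternal hD)).symm.toLinearMap

variable (hD : Cfsg.Geo.IsMDecomposition m D)
include hD

theorem proj_mem (i : Fin t) (x : ι → F) : proj hD i x ∈ D i := Subtype.coe_prop _

theorem proj_of_mem {j : Fin t} {x : ι → F} (hx : x ∈ D j) (i : Fin t) :
    proj hD i x = if i = j then x else 0 := by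
  set e := LinearEquiv.ofBijective (DirectSum.coeLinearMap D) (isInternal hD)
  have h : e.symm x = DirectSum.lof F (Fin t) (fun k => D k) j ⟨x, hx⟩ := by
    apply e.injective
    rw [LinearEquiv.apply_symm_apply]
    show x = DirectSum.coeLinearMap D _
    rw [DirectSum.lof_eq_of, DirectSum.coeLinearMap_of]
  show (((DirectSum.component F (Fin t) (fun k => D k) i) (e.symm x) : D i) : ι → F) = _
  rw [h, DirectSum.component.of]
  split_ifs with h1 h2
  · subst h1; rfl
  · exact absurd h1.symm h2
  · rename_i h3; exact absurd h3.symm h1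
  · rfl

theorem sum_proj (x : ι → F) : ∑ i, proj hD i x = x := by
  classical
  set e := LinearEquiv.ofBijective (DirectSum.coeLinearMap D) (isInternal hD)
  have h := DirectSum.sum_univ_of (β := fun i => D i) (e.symm x)
  have h2 := congrArg (DirectSum.coeLinearMap D) h
  rw [map_sum] at h2
  simp only [DirectSum.coeLinearMap_of] at h2
  rw [show DirectSum.coeLinearMap D (e.symm x) = x from e.apply_symm_apply x] at h2
  exact h2

theorem proj_eq_of_sum {y : Fin t → (ι → F)} (hy : ∀ i, y i ∈ D i) (j : Fin t) :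
    proj hD j (∑ i, y i) = y j := by
  rw [map_sum, Finset.sum_eq_single j]
  · rw [proj_of_mem hD (hy j), if_pos rfl]
  · intro i _ hij; rw [proj_of_mem hD (hy i), if_neg (Ne.symm hij)]
  · simp

/-- An element permuting the members commutes with the projections. -/
theorem proj_mulVec {g : GL ι F} {σ : Equiv.Perm (Fin t)}
    (hσ : ∀ i, (D i).map (Matrix.toLin' (g : Matrix ι ι F)) = D (σ i)) (i : Fin t) (x : ι → F) :
    proj hD (σ i) ((g : Matrix ι ι F) *ᵥ x) = (g : Matrix ι ι F) *ᵥ proj hD i x := by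
  have hmem : ∀ j, ∀ y ∈ D j, (g : Matrix ι ι F) *ᵥ y ∈ D (σ j) := fun j y hy => by
    rw [← hσ j]; exact ⟨y, hy, Matrix.toLin'_apply _ _⟩
  conv_lhs => rw [← sum_proj hD x, Matrix.mulVec_sum, map_sum]
  rw [Finset.sum_eq_single i]
  · rw [proj_of_mem hD (hmem i _ (proj_mem hD i x)), if_pos rfl]
  · intro j _ hj
    rw [proj_of_mem hD (hmem j _ (proj_mem hD j x)), if_neg fun h => hj (σ.injective h).symm]
  · simp

theorem mul_eq_card : t * m = Fintype.card ι := by
  classical
  have h := (LinearEquiv.ofBijective (DirectSum.coeLinearMap D) (isInternal hD)).finrank_eq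
  rw [Module.finrank_directSum, Module.finrank_fintype_fun_eq_card] at h
  simp only [hD.finrank_eq, Finset.sum_const, Finset.card_univ, Fintype.card_fin, smul_eq_mul] at h
  exact h

theorem ne_bot (i : Fin t) : D i ≠ ⊥ := fun h => by
  have := hD.finrank_eq i
  rw [h, finrank_bot] at this
  have := hD.pos
  omega

theorem exists_ne_zero (i : Fin t) : ∃ v ∈ D i, v ≠ 0 := (D i).ne_bot_iff.1 (ne_bot hD i)

/-- A vector with two non-zero components lies in no member. -/
theorem not_mem_of_two {x : ι → F} {i j : Fin t} (hij : i ≠ j) (hi : proj hD i x ≠ 0)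
    (hj : proj hD j x ≠ 0) (k : Fin t) : x ∉ D k := by
  intro hk
  rw [proj_of_mem hD hk] at hi hj
  split_ifs at hi hj with h1 h2
  · exact hij (h1.trans h2.symm)
  all_goals first | exact hi rfl | exact hj rfl

omit hD in
theorem image_mem_of_stabilizer {g : GL ι F} (hg : g ∈ Cfsg.Geo.decompositionStabilizer D)
    {i : Fin t} {x : ι → F} (hx : x ∈ D i) : ∃ j, (g : Matrix ι ι F) *ᵥ x ∈ D j := by
  obtain ⟨σ, hσ⟩ := hg
  exact ⟨σ i, hσ i ▸ ⟨x, hx, Matrix.toLin'_apply _ _⟩⟩

/-- An element mapping each member into a member, by a permutation, stabilises the decomposition. -/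
theorem mem_decompositionStabilizer_of_maps {g : GL ι F} (σ : Equiv.Perm (Fin t))
    (h : ∀ i, ∀ x ∈ D i, (g : Matrix ι ι F) *ᵥ x ∈ D (σ i)) :
    g ∈ Cfsg.Geo.decompositionStabilizer D := by
  refine ⟨σ, fun i => ?_⟩
  have hle : (D i).map (Matrix.toLin' (g : Matrix ι ι F)) ≤ D (σ i) := by
    rintro y ⟨x, hx, rfl⟩
    rw [Matrix.toLin'_apply]; exact h i x hx
  have hinj : Function.Injective (Matrix.toLin' (g : Matrix ι ι F)) := fun a b hab => by
    have h1 := congrArg (fun z => ((g⁻¹ : GL ι F) : Matrix ι ι F) *ᵥ z) hab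
    simpa [Matrix.toLin'_apply, Matrix.mulVec_mulVec] using h1
  refine Submodule.eq_of_le_of_finrank_eq hle ?_
  rw [← (Submodule.equivMapOfInjective _ hinj (D i)).finrank_eq, hD.finrank_eq, hD.finrank_eq]

/-- Outside the stabiliser some member vector leaves every member. -/
theorem exists_not_mem_of_not_stabilizer {g : GL ι F}
    (hg : g ∉ Cfsg.Geo.decompositionStabilizer D) :
    ∃ i, ∃ x ∈ D i, ∀ j, (g : Matrix ι ι F) *ᵥ x ∉ D j := by
  by_contra hc
  push Not at hc
  choose x hx hx0 using exists_ne_zero hD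
  choose σ hσ using fun i => hc i (x i) (hx i)
  have hg0 : ∀ y : ι → F, (g : Matrix ι ι F) *ᵥ y = 0 → y = 0 := fun y hy => by
    have h1 := congrArg (fun z => ((g⁻¹ : GL ι F) : Matrix ι ι F) *ᵥ z) hy
    simpa [Matrix.mulVec_mulVec] using h1
  have hmap : ∀ i, ∀ y ∈ D i, (g : Matrix ι ι F) *ᵥ y ∈ D (σ i) := by
    intro i y hy
    obtain ⟨j, hj⟩ := hc i y hy
    by_cases hjs : j = σ i
    · exact hjs ▸ hj
    by_cases hy0 : y = 0
    · simp [hy0]
    exfalso
    obtain ⟨l, hl⟩ := hc i (y + x i) ((D i).add_mem hy (hx i))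
    refine not_mem_of_two hD hjs ?_ ?_ l hl <;>
      rw [mulVec_add, map_add, proj_of_mem hD hj, proj_of_mem hD (hσ i)]
    · rw [if_pos rfl, if_neg hjs, add_zero]; exact fun h => hy0 (hg0 _ h)
    · rw [if_pos rfl, if_neg (Ne.symm hjs), zero_add]; exact fun h => hx0 i (hg0 _ h)
  have hinj : Function.Injective σ := by
    intro a b hab
    by_contra hne
    have hle : (D a).map (Matrix.toLin' (g : Matrix ι ι F)) ≤ D (σ a) := by
      rintro y ⟨z, hz, rfl⟩
      rw [Matrix.toLin'_apply]; exact hmap a z hz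
    have hinj' : Function.Injective (Matrix.toLin' (g : Matrix ι ι F)) := fun u v huv =>
      sub_eq_zero.1 (hg0 _ (by
        rw [Matrix.mulVec_sub, ← Matrix.toLin'_apply, ← Matrix.toLin'_apply, huv, sub_self]))
    have heq : (D a).map (Matrix.toLin' (g : Matrix ι ι F)) = D (σ a) :=
      Submodule.eq_of_le_of_finrank_eq hle (by
        rw [← (Submodule.equivMapOfInjective _ hinj' (D a)).finrank_eq, hD.finrank_eq,
          hD.finrank_eq])
    obtain ⟨z, hz, hzb⟩ : (g : Matrix ι ι F) *ᵥ x b ∈ (D a).map (Matrix.toLin' (g : Matrix ι ι F)) := by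
      rw [heq, hab]; exact hσ b
    rw [← Matrix.toLin'_apply] at hzb
    have h2 := proj_of_mem hD hz a
    rw [hinj' hzb, if_pos rfl, proj_of_mem hD (hx b), if_neg hne] at h2
    exact hx0 b h2.symm
  exact hg (mem_decompositionStabilizer_of_maps hD
    (Equiv.ofBijective σ (Finite.injective_iff_bijective.1 hinj)) hmap)

end CfsgLib.DecompProj
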