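import Mathlib

/-!
Facts about fields with 2, 3 or 4 elements.
-/

set_option autoImplicit false

namespace CfsgLib.SmallField

variable {F : Type*} [Field F] [Fintype F]

theorem pow_pred_eq_one {a : F} (ha : a ≠ 0) : a ^ (Fintype.card F - 1) = 1 :=
  FiniteField.pow_card_sub_one_eq_one a ha

theorem eq_zero_or_one (h : Fintype.card F = 2) (a : F) : a = 0 ∨ a = 1 := by
  by_cases ha : a = 0
  · exact Or.inl ha
  · have := pow_pred_eq_one ha
    rw [h] at this
    simpa [ha] using this

theorem natCast_card : ((Fintype.card F : ℕ) : F) = 0 := Nat.cast_card_eq_zero F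

theorem two_eq_zero_of_card_two (h : Fintype.card F = 2) : (2 : F) = 0 := by
  have := natCast_card (F := F)
  rw [h] at this
  exact_mod_cast this

theorem two_eq_zero_of_card_four (h : Fintype.card F = 4) : (2 : F) = 0 := by
  have := natCast_card (F := F)
  rw [h] at this
  have h4 : (2 : F) * 2 = 0 := by rw [← this]; norm_num
  exact mul_self_eq_zero.1 h4

theorem three_eq_zero (h : Fintype.card F = 3) : (3 : F) = 0 := by
  have := natCast_card (F := F)
  rw [h] at this
  exact_mod_cast this

theorem cube_eq_one (h : Fintype.card F = 4) {a : F} (ha : a ≠ 0) : a ^ 3 = 1 := by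
  have := pow_pred_eq_one ha
  rwa [h] at this

theorem exists_omega (h : Fintype.card F = 4) : ∃ w : F, w ≠ 0 ∧ w ≠ 1 ∧ w ^ 2 + w + 1 = 0 := by
  classical
  obtain ⟨w, -, hw⟩ := Finset.exists_mem_notMem_of_card_lt_card (s := ({0, 1} : Finset F))
    (t := Finset.univ) (by rw [Finset.card_univ, h]; exact Finset.card_le_two.trans_lt (by norm_num))
  simp only [Finset.mem_insert, Finset.mem_singleton, not_or] at hw
  refine ⟨w, hw.1, hw.2, ?_⟩
  have h1 : w - 1 ≠ 0 := sub_ne_zero.2 hw.2
  apply mul_left_cancel₀ h1
  linear_combination cube_eq_one h hw.1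

end CfsgLib.SmallField
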