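import Mathlib
import Cfsg.Agent.Classical.TransvAlg
import Cfsg.Agent.LinAlg.Witt.Bases
import Cfsg.Agent.LinAlg.Witt.Mat
import Cfsg.Agent.Eq.Def_GeometricClasses
import Cfsg.Agent.Eq.Def_ClassicalGeometry

/-!
Unitary forms given as functions: isotropic vectors, transvections and centres of transvection
groups contained in a subgroup.
-/

set_option autoImplicit false

namespace CfsgLib.UnitCentres

open Matrix CfsgLib.TransvGL

variable {ι : Type} [Fintype ι] [DecidableEq ι] {F : Type*} [Field F]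
variable {σ : F ≃+* F} {f : (ι → F) → (ι → F) → F}

section Basic

variable (hf : Cfsg.Geo.IsUnitaryForm σ f)
include hf

theorem add_right (v x y : ι → F) : f v (x + y) = f v x + f v y := by
  rw [hf.herm v (x + y), hf.add_left, map_add, ← hf.herm, ← hf.herm]

theorem smul_right (c : F) (v x : ι → F) : f v (c • x) = σ c * f v x := by
  rw [hf.herm v (c • x), hf.smul_left, map_mul, ← hf.herm]

theorem zero_left (x : ι → F) : f 0 x = 0 := by simpa using hf.smul_left 0 0 x

theorem zero_right (x : ι → F) : f x 0 = 0 := by simpa using smul_right hf 0 x 0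

theorem sub_left (x y v : ι → F) : f (x - y) v = f x v - f y v := by
  have h := hf.add_left (x - y) y v
  rw [sub_add_cancel] at h
  linear_combination -h

theorem sub_right (v x y : ι → F) : f v (x - y) = f v x - f v y := by
  have h := add_right hf v (x - y) y
  rw [sub_add_cancel] at h
  linear_combination -h

theorem orth_comm {a b : ι → F} (h : f a b = 0) : f b a = 0 := by rw [hf.herm, h, map_zero]

theorem norm_fixed (x : ι → F) : σ (f x x) = f x x := (hf.herm x x).symm

theorem exists_traceZero : ∃ c : F, c ≠ 0 ∧ c + σ c = 0 := by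
  obtain ⟨a, ha⟩ : ∃ a, σ a ≠ a := by
    by_contra h
    push Not at h
    exact hf.ne_refl (RingEquiv.ext h)
  exact ⟨a - σ a, sub_ne_zero.2 (Ne.symm ha), by rw [map_sub, hf.involutive]; ring⟩

theorem exists_trace_one : ∃ a : F, a + σ a = 1 := by
  obtain ⟨a, ha⟩ : ∃ a : F, a + σ a ≠ 0 := by
    by_contra h
    push Not at h
    refine hf.ne_refl (RingEquiv.ext fun x => ?_)
    have h1 := h 1
    rw [map_one] at h1
    show σ x = x
    linear_combination h x - x * h1
  refine ⟨a / (a + σ a), ?_⟩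
  rw [map_div₀, map_add, hf.involutive, add_comm (σ a) a, ← add_div, div_self ha]

theorem exists_trace {r : F} (hr : σ r = r) : ∃ a : F, a + σ a = r := by
  obtain ⟨a, ha⟩ := exists_trace_one hf
  exact ⟨r * a, by rw [map_mul, hr, ← mul_add, ha, mul_one]⟩

theorem exists_norm [Finite F] {r : F} (hr : σ r = r) : ∃ a : F, a * σ a = r := by
  obtain ⟨a, ha⟩ := CfsgLib.LinAlg.Witt.exists_norm_eq (σ : F →+* F)
    (fun h => hf.ne_refl (RingEquiv.ext (RingHom.congr_fun h))) hf.involutive hr
  exact ⟨a, by rw [mul_comm]; exact ha⟩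

theorem norm_add_smul (x y : ι → F) (t : F) :
    f (x + t • y) (x + t • y) = f x x + σ t * f x y + t * f y x + t * σ t * f y y := by
  rw [hf.add_left, add_right hf, add_right hf, hf.smul_left, hf.smul_left, smul_right hf,
    smul_right hf]
  ring

/-- Polarisation. -/
theorem orth_of_isotropic {P : Submodule F (ι → F)} (h : ∀ x ∈ P, f x x = 0) {x y : ι → F}
    (hx : x ∈ P) (hy : y ∈ P) : f x y = 0 := by
  by_contra hne
  obtain ⟨a, ha⟩ := exists_trace_one hf
  set t := a / f y x with ht
  have hne' : f y x ≠ 0 := fun e => hne (orth_comm hf e)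
  have h1 := h (x + t • y) (P.add_mem hx (P.smul_mem t hy))
  rw [norm_add_smul hf, h x hx, h y hy, mul_zero, add_zero, zero_add] at h1
  have h2 : t * f y x = a := div_mul_cancel₀ _ hne'
  have h3 : σ t * f x y = σ a := by rw [hf.herm x y, ← map_mul, h2]
  rw [h2, h3] at h1
  exact one_ne_zero (by linear_combination h1 - ha : (1 : F) = 0)

/-- An isotropic translate along an isotropic vector. -/
theorem exists_isotropic_shift {u d : ι → F} (hu : f u u = 0) (hud : f u d ≠ 0) :
    ∃ t : F, f (d + t • u) (d + t • u) = 0 := by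
  obtain ⟨a, ha⟩ := exists_trace hf (r := -f d d) (by rw [map_neg, norm_fixed hf])
  refine ⟨a / f u d, ?_⟩
  have h2 : a / f u d * f u d = a := div_mul_cancel₀ _ hud
  have h3 : σ (a / f u d) * f d u = σ a := by rw [hf.herm d u, ← map_mul, h2]
  rw [norm_add_smul hf, hu, mul_zero, add_zero, h2, h3]
  linear_combination ha

end Basic

/-- The functional `x ↦ f x b`. -/
def upair (hf : Cfsg.Geo.IsUnitaryForm σ f) (b : ι → F) : Module.Dual F (ι → F) where
  toFun x := f x b
  map_add' x y := hf.add_left x y b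
  map_smul' c x := hf.smul_left c x b

@[simp] theorem upair_apply (hf : Cfsg.Geo.IsUnitaryForm σ f) (b x : ι → F) :
    upair hf b x = f x b := rfl

/-- The orthogonal complement of a set. -/
def perp (hf : Cfsg.Geo.IsUnitaryForm σ f) (S : Set (ι → F)) : Submodule F (ι → F) where
  carrier := {x | ∀ w ∈ S, f x w = 0}
  add_mem' ha hb w hw := by rw [hf.add_left, ha w hw, hb w hw, add_zero]
  zero_mem' w _ := zero_left hf w
  smul_mem' c x hx w hw := by rw [hf.smul_left, hx w hw, mul_zero]

theorem exists_upair_eq [Finite F] (hf : Cfsg.Geo.IsUnitaryForm σ f) (φ : Module.Dual F (ι → F)) :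
    ∃ b, upair hf b = φ := by
  set e := (Pi.basisFun F ι).toDualEquiv with he
  have hinj : Function.Injective fun b => e.symm (upair hf b) := by
    intro a b hab
    have h1 : upair hf a = upair hf b := e.symm.injective hab
    by_contra hne
    obtain ⟨⟨x, hx⟩, -⟩ := hf.nondegenerate (a - b) (sub_ne_zero.2 hne)
    refine hx ?_
    rw [sub_right hf, ← upair_apply hf a, ← upair_apply hf b, h1, sub_self]
  obtain ⟨b, hb⟩ := Finite.surjective_of_injective hinj (e.symm φ)
  exact ⟨b, e.symm.injective hb⟩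

theorem exists_orth_sep [Finite F] (hf : Cfsg.Geo.IsUnitaryForm σ f) {U : Submodule F (ι → F)}
    {x : ι → F} (hx : x ∉ U) : ∃ d, (∀ w ∈ U, f w d = 0) ∧ f x d ≠ 0 := by
  obtain ⟨φ, hφx, hφ⟩ := Submodule.exists_dual_map_eq_bot_of_notMem hx inferInstance
  obtain ⟨d, rfl⟩ := exists_upair_eq hf φ
  refine ⟨d, fun w hw => ?_, hφx⟩
  have : upair hf d w ∈ Submodule.map (upair hf d) U := Submodule.mem_map_of_mem hw
  rw [hφ] at this
  exact (Submodule.mem_bot F).1 this

/-- A small set has a non-isotropic common orthogonal vector. -/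
theorem exists_aniso_orth [Finite F] (hf : Cfsg.Geo.IsUnitaryForm σ f) (S : Finset (ι → F))
    (h : 2 * S.card < Fintype.card ι) : ∃ u, (∀ w ∈ S, f u w = 0) ∧ f u u ≠ 0 := by
  by_contra hno
  push Not at hno
  let L : (ι → F) →ₗ[F] (S → F) := LinearMap.pi fun w => upair hf (w : ι → F)
  have hker : ∀ x, x ∈ LinearMap.ker L ↔ ∀ w ∈ S, f x w = 0 := by
    intro x
    rw [LinearMap.mem_ker, funext_iff]
    exact ⟨fun hx w hw => hx ⟨w, hw⟩, fun hx w => hx w w.2⟩
  have hle : LinearMap.ker L ≤ Submodule.span F (S : Set (ι → F)) := by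
    intro x hx
    by_contra hxS
    obtain ⟨d, hd, hxd⟩ := exists_orth_sep hf hxS
    refine hxd (orth_of_isotropic hf (fun z hz => hno z ((hker z).1 hz)) hx ?_)
    exact (hker d).2 fun w hw => orth_comm hf (hd w (Submodule.subset_span hw))
  have h1 := LinearMap.finrank_range_add_finrank_ker L
  have h2 : Module.finrank F (LinearMap.range L) ≤ S.card :=
    (Submodule.finrank_le _).trans (by simp)
  have h3 : Module.finrank F (ι → F) = Fintype.card ι := Module.finrank_fintype_fun_eq_card F
  have h4 := Submodule.finrank_mono hle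
  have h5 := finrank_span_finset_le_card (R := F) S
  rw [Set.finrank] at h5
  omega

/-- A vector of norm one orthogonal to a small set. -/
theorem exists_unit_orth [Finite F] (hf : Cfsg.Geo.IsUnitaryForm σ f) (S : Finset (ι → F))
    (h : 2 * S.card < Fintype.card ι) : ∃ u, (∀ w ∈ S, f u w = 0) ∧ f u u = 1 := by
  obtain ⟨u, hu, hu0⟩ := exists_aniso_orth hf S h
  obtain ⟨a, ha⟩ := exists_norm hf (r := (f u u)⁻¹) (by rw [map_inv₀, norm_fixed hf])
  refine ⟨a • u, fun w hw => by rw [hf.smul_left, hu w hw, mul_zero], ?_⟩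
  rw [hf.smul_left, smul_right hf, ← mul_assoc, ha, inv_mul_cancel₀ hu0]

/-- A hyperbolic pair orthogonal to a small set. -/
theorem exists_hyperbolic_orth [Finite F] (hf : Cfsg.Geo.IsUnitaryForm σ f) (S : Finset (ι → F))
    (h : 2 * S.card + 2 < Fintype.card ι) :
    ∃ e e', (∀ w ∈ S, f e w = 0) ∧ (∀ w ∈ S, f e' w = 0) ∧ f e e = 0 ∧ f e' e' = 0 ∧ f e e' = 1 := by
  classical
  obtain ⟨u, hu, hu1⟩ := exists_unit_orth hf S (by omega)
  obtain ⟨v, hv, hv1⟩ := exists_unit_orth hf (insert u S)
    (by have := Finset.card_insert_le u S; omega)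
  have hvu : f v u = 0 := hv u (Finset.mem_insert_self _ _)
  obtain ⟨l, hl⟩ := exists_norm hf (r := (-1 : F)) (by rw [map_neg, map_one])
  have hl0 : l ≠ 0 := fun e => by rw [e, zero_mul] at hl; exact one_ne_zero (neg_eq_zero.1 hl.symm)
  set e := u + l • v with he
  have hee : f e e = 0 := by
    rw [he, norm_add_smul hf, hu1, hv1, hvu, orth_comm hf hvu]
    linear_combination hl
  have heu : f e u = 1 := by rw [he, hf.add_left, hf.smul_left, hu1, hvu, mul_zero, add_zero]
  obtain ⟨t, ht⟩ := exists_isotropic_shift hf hee (d := u) (by rw [heu]; exact one_ne_zero)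
  have heS : ∀ w ∈ S, f e w = 0 := fun w hw => by
    rw [he, hf.add_left, hf.smul_left, hu w hw, hv w (Finset.mem_insert_of_mem hw), mul_zero, add_zero]
  refine ⟨e, u + t • e, heS, fun w hw => ?_, hee, ht, ?_⟩
  · rw [hf.add_left, hf.smul_left, hu w hw, heS w hw, mul_zero, add_zero]
  · rw [add_right hf, smul_right hf, hee, heu, mul_zero, add_zero]

/-- The isometry condition. -/
def Iso (f : (ι → F) → (ι → F) → F) (g : GL ι F) : Prop :=
  ∀ x y, f ((g : Matrix ι ι F) *ᵥ x) ((g : Matrix ι ι F) *ᵥ y) = f x y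

theorem Iso.mul {g h : GL ι F} (hg : Iso f g) (hh : Iso f h) : Iso f (g * h) := fun x y => by
  simp only [Units.val_mul, ← mulVec_mulVec]; rw [hg, hh]

theorem Iso.inv {g : GL ι F} (hg : Iso f g) : Iso f g⁻¹ := fun x y => by
  rw [← hg, mulVec_inv_mulVec, mulVec_inv_mulVec]

/-- The unitary transvection `x ↦ x + c f x v • v`. -/
noncomputable def uT (hf : Cfsg.Geo.IsUnitaryForm σ f) {v : ι → F} (hv : f v v = 0) (c : F) :
    GL ι F :=
  transv (φ := c • upair hf v) (v := v) (by simp [hv])

theorem uT_mulVec (hf : Cfsg.Geo.IsUnitaryForm σ f) {v : ι → F} (hv : f v v = 0) (c : F)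
    (x : ι → F) : (uT hf hv c : Matrix ι ι F) *ᵥ x = x + (c * f x v) • v := by
  rw [uT, transv_mulVec]; rfl

theorem uT_mem_specialLinear (hf : Cfsg.Geo.IsUnitaryForm σ f) {v : ι → F} (hv : f v v = 0)
    (c : F) : uT hf hv c ∈ Cfsg.Geo.specialLinear ι F := transv_mem_specialLinear _

theorem uT_iso (hf : Cfsg.Geo.IsUnitaryForm σ f) {v : ι → F} (hv : f v v = 0) {c : F}
    (hc : c + σ c = 0) : Iso f (uT hf hv c) := fun x y => by
  rw [uT_mulVec, uT_mulVec, hf.add_left, add_right hf, add_right hf, hf.smul_left, hf.smul_left,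
    smul_right hf, smul_right hf, hv, map_mul, ← hf.herm v y]
  linear_combination (f x v * f v y) * hc

theorem uT_mem_subspaceStabilizer (hf : Cfsg.Geo.IsUnitaryForm σ f) {W : Submodule F (ι → F)}
    {v : ι → F} (hv : f v v = 0) (h : v ∈ W ∨ ∀ x ∈ W, f x v = 0) (c : F) :
    uT hf hv c ∈ Cfsg.Geo.subspaceStabilizer W := by
  refine transv_mem_subspaceStabilizer _ (h.imp_right fun h x hx => ?_)
  simp [h x hx]

/-- All unitary transvections with centre `v` lie in `M`. -/
def Centre (hf : Cfsg.Geo.IsUnitaryForm σ f) (M : Subgroup (GL ι F)) (v : ι → F) : Prop :=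
  ∃ hv : f v v = 0, ∀ c, c + σ c = 0 → uT hf hv c ∈ M

variable {hf : Cfsg.Geo.IsUnitaryForm σ f} {M : Subgroup (GL ι F)}

theorem Centre.iso {v : ι → F} (h : Centre hf M v) : f v v = 0 := h.1

theorem Centre.smul {v : ι → F} (h : Centre hf M v) (s : F) : Centre hf M (s • v) := by
  obtain ⟨hv, h⟩ := h
  have hv' : f (s • v) (s • v) = 0 := by rw [hf.smul_left, smul_right hf, hv, mul_zero, mul_zero]
  refine ⟨hv', fun c hc => ?_⟩
  have : uT hf hv' c = uT hf hv (c * (s * σ s)) := ext_mulVec fun x => by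
    rw [uT_mulVec, uT_mulVec, smul_right hf, smul_smul]
    congr 2; ring
  rw [this]
  refine h _ ?_
  rw [map_mul, map_mul, hf.involutive]
  linear_combination (s * σ s) * hc

theorem Centre.image {v : ι → F} (h : Centre hf M v) {g : GL ι F} (hgM : g ∈ M) (hg : Iso f g) :
    Centre hf M ((g : Matrix ι ι F) *ᵥ v) := by
  obtain ⟨hv, h⟩ := h
  refine ⟨by rw [hg]; exact hv, fun c hc => ?_⟩
  have : g * uT hf hv c * g⁻¹ = uT hf (show f _ _ = 0 by rw [hg]; exact hv) c := by
    rw [mul_inv_eq_iff_eq_mul]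
    refine ext_mulVec fun x => ?_
    simp only [Units.val_mul, ← mulVec_mulVec, uT_mulVec, mulVec_add, mulVec_smul]
    rw [hg]
  rw [← this]
  exact M.mul_mem (M.mul_mem hgM (h c hc)) (M.inv_mem hgM)

/-- Isotropic vectors on the line through two non-orthogonal centres are centres. -/
theorem Centre.line {v w : ι → F} (hv : Centre hf M v) (hw : Centre hf M w) (h : f v w ≠ 0)
    {a b : F} (hy : f (a • v + b • w) (a • v + b • w) = 0) : Centre hf M (a • v + b • w) := by
  by_cases ha : a = 0
  · rw [ha, zero_smul, zero_add]; exact hw.smul b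
  set t := b / a with ht
  have hy' : a • v + b • w = a • (v + t • w) := by
    rw [smul_add, smul_smul, ht, mul_div_cancel₀ _ ha]
  have hiso : f (v + t • w) (v + t • w) = 0 := by
    rw [hy', hf.smul_left, smul_right hf] at hy
    simpa [ha] using hy
  rw [norm_add_smul hf, hv.iso, hw.iso, mul_zero, add_zero, zero_add] at hiso
  set c := t / f v w with hc
  have hcz : c + σ c = 0 := by
    rw [hc, map_div₀, ← hf.herm w v, div_add_div _ _ h (fun e => h (orth_comm hf e)), div_eq_zero_iff]
    exact Or.inl (by linear_combination hiso)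
  obtain ⟨hww, hwM⟩ := hw
  have := hv.image (hwM c hcz) (uT_iso hf hww hcz)
  rw [uT_mulVec, hc, div_mul_cancel₀ _ h] at this
  rw [hy']
  exact this.smul a

/-- An isotropic vector moved along an isotropic difference. -/
theorem Centre.of_move {u y : ι → F} (hu : Centre hf M u) (hd : Centre hf M (y - u))
    (h : f u y ≠ 0) (hy : f y y = 0) : Centre hf M y := by
  have h1 : f u (y - u) ≠ 0 := by rwa [sub_right hf, hu.iso, sub_zero]
  have h2 : (1 : F) • u + (1 : F) • (y - u) = y := by module
  exact h2 ▸ hu.line hd h1 (by rw [h2]; exact hy)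

theorem det_norm [Finite F] (hf : Cfsg.Geo.IsUnitaryForm σ f) {g : GL ι F} (hg : Iso f g) :
    (g : Matrix ι ι F).det * σ (g : Matrix ι ι F).det = 1 := by
  set J : Matrix ι ι F := Matrix.of fun i j => f (Pi.single i 1) (Pi.single j 1) with hJ
  have hexp : ∀ x y : ι → F, f x y = x ⬝ᵥ J *ᵥ (fun j => σ (y j)) := by
    intro x y
    let R : (ι → F) →+ F :=
      { toFun := fun z => f x z, map_zero' := zero_right hf x, map_add' := add_right hf x }
    have h1 : f x y = ∑ j, σ (y j) * f x (Pi.single j 1) := by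
      show R y = _
      conv_lhs => rw [← Finset.univ_sum_single y]
      rw [map_sum]
      refine Finset.sum_congr rfl fun j _ => ?_
      show f x (Pi.single j (y j)) = _
      rw [← smul_right hf, ← Pi.single_smul', smul_eq_mul, mul_one]
    have h2 : ∀ j, f x (Pi.single j 1) = ∑ i, x i * J i j := fun j => by
      show upair hf (Pi.single j 1) x = _
      conv_lhs => rw [← Finset.univ_sum_single x, map_sum]
      refine Finset.sum_congr rfl fun i _ => ?_
      rw [upair_apply, hJ, Matrix.of_apply, ← hf.smul_left, ← Pi.single_smul', smul_eq_mul, mul_one]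
    simp_rw [h1, h2, dotProduct, mulVec, dotProduct, Finset.mul_sum]
    rw [Finset.sum_comm]
    exact Finset.sum_congr rfl fun i _ => Finset.sum_congr rfl fun j _ => by ring
  have hJ0 : J.det ≠ 0 := by
    intro h0
    obtain ⟨v, hv0, hv⟩ := Matrix.exists_vecMul_eq_zero_iff.2 h0
    obtain ⟨-, x, hx⟩ := hf.nondegenerate v hv0
    rw [hexp, dotProduct_mulVec, hv, zero_dotProduct] at hx
    exact hx rfl
  have hmat : (g : Matrix ι ι F)ᵀ * J * (g : Matrix ι ι F).map σ = J := by
    ext i j
    have h1 := hg (Pi.single i 1) (Pi.single j 1)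
    rw [hexp, Matrix.mulVec_single_one, Matrix.mulVec_single_one] at h1
    refine Eq.trans ?_ h1
    simp only [Matrix.mul_apply, Matrix.transpose_apply, Matrix.map_apply, dotProduct, mulVec,
      Matrix.col_apply, Finset.mul_sum, Finset.sum_mul, mul_assoc]
    rw [Finset.sum_comm]
  have hdet := congrArg Matrix.det hmat
  rw [det_mul, det_mul, det_transpose] at hdet
  have hmapdet : ((g : Matrix ι ι F).map σ).det = σ (g : Matrix ι ι F).det := (σ.map_det _).symm
  rw [hmapdet] at hdet
  exact mul_right_cancel₀ hJ0 (by linear_combination hdet)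

/-- Witt's theorem inside the special unitary group. -/
theorem exists_iso_special [Finite F] (hf : Cfsg.Geo.IsUnitaryForm σ f) (X : Submodule F (ι → F))
    (φ : X →ₗ[F] (ι → F)) (hφ : Function.Injective φ)
    (hB : ∀ x x' : X, f (φ x) (φ x') = f (x : ι → F) (x' : ι → F)) {u : ι → F} (hu : f u u = 1)
    (hu' : ∀ x : X, f (φ x) u = 0) :
    ∃ g : GL ι F, Iso f g ∧ g ∈ Cfsg.Geo.specialLinear ι F ∧
      ∀ x : X, (g : Matrix ι ι F) *ᵥ (x : ι → F) = φ x := by
  obtain ⟨g, hg, hgx⟩ := CfsgLib.LinAlg.Witt.witt_unitaryFun hf X φ hφ hB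
  set d := (g : Matrix ι ι F).det with hd
  have hdn : d * σ d = 1 := det_norm hf hg
  have hd0 : d ≠ 0 := fun e => by rw [e, zero_mul] at hdn; exact zero_ne_one hdn
  set R := LinearMap.toMatrix' (LinearMap.transvection ((d⁻¹ - 1) • upair hf u) u) with hR
  have hRdet : R.det = d⁻¹ := by
    rw [hR, LinearMap.det_toMatrix', LinearMap.transvection.det]
    simp [hu]
  have hRmul : ∀ x, R *ᵥ x = x + ((d⁻¹ - 1) * f x u) • u := fun x => by
    rw [hR, LinearMap.toMatrix'_mulVec, LinearMap.transvection.apply]; rfl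
  set r : GL ι F := Matrix.GeneralLinearGroup.mkOfDetNeZero R
    (by rw [hRdet]; exact inv_ne_zero hd0) with hr
  have hrR : (r : Matrix ι ι F) = R := rfl
  refine ⟨r * g, Iso.mul ?_ hg, ?_, fun x => ?_⟩
  · intro x y
    rw [hrR, hRmul, hRmul, hf.add_left, add_right hf, add_right hf, hf.smul_left, hf.smul_left,
      smul_right hf, smul_right hf, hu, map_mul, map_sub, map_one, map_inv₀, ← hf.herm u y,
      eq_inv_of_mul_eq_one_right hdn, inv_inv]
    linear_combination (f x u * f u y) * (inv_mul_cancel₀ hd0)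
  · rw [Cfsg.Geo.specialLinear, MonoidHom.mem_ker, Units.ext_iff]
    change ((r * g : GL ι F) : Matrix ι ι F).det = 1
    rw [Units.val_mul, det_mul, hrR, hRdet, ← hd, inv_mul_cancel₀ hd0]
  · rw [Units.val_mul, ← mulVec_mulVec, hgx, hrR, hRmul, hu', mul_zero, zero_smul, add_zero]

/-- An element mapping `W` into itself stabilises it. -/
theorem mem_subspaceStabilizer_of_maps {W : Submodule F (ι → F)} {g : GL ι F}
    (h : ∀ x ∈ W, (g : Matrix ι ι F) *ᵥ x ∈ W) : g ∈ Cfsg.Geo.subspaceStabilizer W := by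
  rw [mem_subspaceStabilizer]
  refine fun x => ⟨h x, fun hx => ?_⟩
  have hle : W.map (Matrix.toLin' (g : Matrix ι ι F)) ≤ W := by
    rintro y ⟨z, hz, rfl⟩
    rw [Matrix.toLin'_apply]; exact h z hz
  have hinj : Function.Injective (Matrix.toLin' (g : Matrix ι ι F)) := fun a b hab => by
    rw [Matrix.toLin'_apply, Matrix.toLin'_apply] at hab
    rw [← inv_mulVec_mulVec g a, hab, inv_mulVec_mulVec]
  have heq := Submodule.eq_of_le_of_finrank_eq hle
    (Submodule.equivMapOfInjective _ hinj W).finrank_eq.symm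
  obtain ⟨z, hz, hzx⟩ : (g : Matrix ι ι F) *ᵥ x ∈ W.map (Matrix.toLin' (g : Matrix ι ι F)) :=
    heq.symm ▸ hx
  rw [← Matrix.toLin'_apply] at hzx
  exact hinj hzx ▸ hz

end CfsgLib.UnitCentres
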