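import Mathlib
import Cfsg.Agent.Classical.UnitCentres
import Cfsg.Agent.Classical.Unitary.Isotropic
import Cfsg.Agent.Classical.Unitary.Generation
import Cfsg.Agent.LinAlg.Witt.Std
import Cfsg.Agent.Eq.Def_GeometricClasses
import Cfsg.Agent.Eq.Def_LieClassical

/-!
`GU ⊓ SL` is contained in every subgroup in which all isotropic vectors are centres.
-/

set_option autoImplicit false

namespace CfsgLib.UnitCentres

open Matrix CfsgLib.TransvGL

variable {F : Type*} [Field F] [Fintype F] {n q : ℕ}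

theorem mem_special {g : GL (Fin n) F} :
    g ∈ Cfsg.GU n F q ⊓ Cfsg.Geo.specialLinear (Fin n) F ↔
      Iso (Cfsg.hermForm n F q) g ∧ g ∈ Cfsg.Geo.specialLinear (Fin n) F := Iff.rfl

theorem gu_le_of_centres (hF : Fintype.card F = q ^ 2) (hn : 4 ≤ n) {σ : F ≃+* F}
    (hσ : ∀ x, σ x = x ^ q) (hf : Cfsg.Geo.IsUnitaryForm σ (Cfsg.hermForm n F q))
    {M : Subgroup (GL (Fin n) F)}
    (h : ∀ v, Cfsg.hermForm n F q v v = 0 → Centre hf M v) :
    Cfsg.GU n F q ⊓ Cfsg.Geo.specialLinear (Fin n) F ≤ M := by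
  intro g hg
  have hdet : (g : Matrix (Fin n) (Fin n) F).det = 1 := congrArg Units.val hg.2
  let A : ↥(Cfsg.SU n F q) := ⟨⟨(g : Matrix (Fin n) (Fin n) F), hdet⟩, hg.1⟩
  let toG : ↥(Cfsg.SU n F q) →* GL (Fin n) F :=
    (Cfsg.GU n F q).subtype.comp CfsgLib.Unitary.suToGU
  have hA : A ∈ M.comap toG := by
    have h32 : ¬ (n = 3 ∧ q = 2) := fun h' => by omega
    have htop : A ∈ CfsgLib.Unitary.transvGroup n F q :=
      (CfsgLib.Unitary.transvGroup_eq_top hF h32).symm ▸ Subgroup.mem_top A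
    refine (Subgroup.closure_le (M.comap toG)).2 ?_ htop
    rintro B ⟨v, c, hv, hB⟩
    obtain ⟨c', hc', rfl, -⟩ := CfsgLib.Unitary.eq_transvSU_of_matrix_eq hF hv hB
    obtain ⟨hv', hM⟩ := h v hv
    show toG _ ∈ M
    convert hM c' (by rw [hσ]; exact hc') using 1
    exact ext_mulVec fun x => (CfsgLib.Unitary.sv_transvSU hF hv hc' x).trans (uT_mulVec hf hv' c' x).symm
  have : toG A = g := Units.ext rfl
  exact this ▸ hA

end CfsgLib.UnitCentres
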